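import Mathlib

/-!
# Metabelian groups all of whose proper quotients are abelian (Isaacs, 12.3)
-/

set_option autoImplicit false

open scoped commutatorElement

namespace Cfsg.Agent.H27

variable {Q : Type*} [Group Q] [Finite Q]

/-- A non-abelian metabelian group with all proper quotients abelian is a `q`-group, or its derived
subgroup `N` is an elementary abelian `q`-group complemented by a group acting fixed-point-freely. -/
theorem just_nonabelian (hQ : commutator Q ≠ ⊥)
    (hab : ∀ a ∈ commutator Q, ∀ b ∈ commutator Q, a * b = b * a)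
    (hjn : ∀ X : Subgroup Q, X.Normal → X ≠ ⊥ → commutator Q ≤ X) :
    ∃ q : ℕ, q.Prime ∧ IsPGroup q (commutator Q) ∧ (IsPGroup q Q ∨
      ((∀ g : Q, g ∉ commutator Q → ∀ b ∈ commutator Q, ∃ a ∈ commutator Q, ⁅g, a⁆ = b) ∧
        ¬ q ∣ (commutator Q).index ∧ (commutator Q).index ≤ Nat.card (commutator Q) ∧
        commutator Q ≠ ⊤)) := by
  classical
  set N := commutator Q with hN
  have hNn : N.Normal := inferInstance
  have hcard : Nat.card N ≠ 1 := fun h => hQ (Subgroup.eq_bot_of_card_eq _ h)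
  obtain ⟨q, hq, hqd⟩ := Nat.exists_prime_and_dvd hcard
  haveI := Fact.mk hq
  -- exponent
  have hexp : ∀ x ∈ N, x ^ q = 1 := by
    let T : Subgroup Q :=
      { carrier := {x | x ∈ N ∧ x ^ q = 1}
        one_mem' := ⟨N.one_mem, one_pow q⟩
        mul_mem' := fun {x y} hx hy => ⟨N.mul_mem hx.1 hy.1, by
          rw [(show Commute x y from hab x hx.1 y hy.1).mul_pow, hx.2, hy.2, one_mul]⟩
        inv_mem' := fun {x} hx => ⟨N.inv_mem hx.1, by rw [inv_pow, hx.2, inv_one]⟩ }
    obtain ⟨x, hx⟩ := exists_prime_orderOf_dvd_card' (G := N) q hqd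
    have hT : N ≤ T := hjn T ⟨fun t ht g => ⟨hNn.conj_mem t ht.1 g, by
        rw [conj_pow, ht.2, mul_one, mul_inv_cancel]⟩⟩ (by
      intro hbot
      have hxT : (x : Q) ∈ T := ⟨x.2, by
        have h := pow_orderOf_eq_one x
        rw [hx] at h
        exact congrArg Subtype.val h⟩
      rw [hbot, Subgroup.mem_bot] at hxT
      rw [show x = 1 from Subtype.ext hxT, orderOf_one] at hx
      exact hq.ne_one hx.symm)
    exact fun y hy => (hT hy).2
  have hNq : IsPGroup q N := fun x => ⟨1, Subtype.ext (by simpa using hexp x x.2)⟩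
  refine ⟨q, hq, hNq, ?_⟩
  by_cases hZ : Subgroup.center Q = ⊥
  swap
  · left
    have hNZ : N ≤ Subgroup.center Q := hjn _ inferInstance hZ
    have hnil : Group.IsNilpotent Q := by
      haveI : (Subgroup.center Q).Normal := inferInstance
      haveI hqa : IsMulCommutative (Q ⧸ Subgroup.center Q) := ⟨⟨fun x y => by
        induction x using QuotientGroup.induction_on with
        | H a =>
        induction y using QuotientGroup.induction_on with
        | H b =>
        rw [← commutatorElement_eq_one_iff_mul_comm]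
        exact (QuotientGroup.eq_one_iff ⁅a, b⁆).2 (hNZ (by
          rw [hN]; exact Subgroup.commutator_mem_commutator (Subgroup.mem_top a) (Subgroup.mem_top b)))⟩⟩
      letI : CommGroup (Q ⧸ Subgroup.center Q) :=
        { (inferInstance : Group (Q ⧸ Subgroup.center Q)) with mul_comm := hqa.is_comm.comm }
      exact of_quotient_center_nilpotent CommGroup.isNilpotent
    intro g
    have hord : 0 < orderOf g := orderOf_pos g
    by_contra hcon
    push Not at hcon
    obtain ⟨r, hr, hrd, hrq⟩ : ∃ r : ℕ, r.Prime ∧ r ∣ orderOf g ∧ r ≠ q := by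
      by_contra h
      push Not at h
      obtain ⟨k, hk⟩ : ∃ k, orderOf g = q ^ k :=
        ⟨_, Nat.eq_prime_pow_of_unique_prime_dvd hord.ne' fun {d} hd hdd => h d hd hdd⟩
      exact hcon k (hk ▸ pow_orderOf_eq_one g)
    haveI := Fact.mk hr
    let R : Sylow r Q := default
    have hRn : (R : Subgroup Q).Normal := by
      have := ((isNilpotent_of_finite_tfae (G := Q)).out 0 3).1 hnil
      exact this r ⟨hr⟩ R
    have hRb : (R : Subgroup Q) ≠ ⊥ := by
      intro h
      have h1 := R.card_eq_multiplicity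
      rw [h, Subgroup.card_bot] at h1
      have h2 : r ∣ Nat.card Q := hrd.trans (orderOf_dvd_natCard g)
      have h3 : 1 ≤ (Nat.card Q).factorization r :=
        hr.factorization_pos_of_dvd Nat.card_pos.ne' h2
      have h4 : 1 < r ^ (Nat.card Q).factorization r := Nat.one_lt_pow (by omega) hr.one_lt
      omega
    have hle := Subgroup.card_dvd_of_le (hjn _ hRn hRb)
    obtain ⟨k, hk⟩ := IsPGroup.iff_card.1 R.isPGroup'
    exact hrq ((Nat.prime_dvd_prime_iff_eq hq hr).1 (hq.dvd_of_dvd_pow (hk ▸ hqd.trans hle))).symm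
  right
  -- the centraliser of `N`
  let C := Subgroup.centralizer (N : Set Q)
  obtain ⟨g₀, hg₀⟩ : ∃ g, g ∉ C := by
    by_contra hcon
    push Not at hcon
    refine hQ ?_
    rw [eq_bot_iff, ← hZ]
    intro a ha
    exact Subgroup.mem_center_iff.2 fun g => (Subgroup.mem_centralizer_iff.1 (hcon g) a ha).symm
  have hcomm : ∀ g h : Q, g * h * g⁻¹ * h⁻¹ ∈ N := fun g h => by
    rw [hN, ← commutatorElement_def]
    exact Subgroup.commutator_mem_commutator (Subgroup.mem_top g) (Subgroup.mem_top h)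
  have hfix : ∀ g, g ∉ C → ∀ a ∈ N, g * a = a * g → a = 1 := by
    intro g hg a ha hga
    by_contra hne
    let T : Subgroup Q := N ⊓ Subgroup.centralizer {g}
    have hT : T.Normal := ⟨fun t ht h => by
      refine ⟨hNn.conj_mem t ht.1 h, Subgroup.mem_centralizer_singleton_iff.2 ?_⟩
      have h1 : t * g = g * t := Subgroup.mem_centralizer_singleton_iff.1 ht.2
      set n := g * h * g⁻¹ * h⁻¹ with hn
      have e : g * (h * t * h⁻¹) * g⁻¹ = n * (h * t * h⁻¹) * n⁻¹ := by
        calc g * (h * t * h⁻¹) * g⁻¹ = n * h * (g * t * g⁻¹) * h⁻¹ * n⁻¹ := by rw [hn]; group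
          _ = n * (h * t * h⁻¹) * n⁻¹ := by rw [← h1]; group
      rw [hab n (hcomm g h) _ (hNn.conj_mem t ht.1 h), mul_inv_cancel_right] at e
      calc h * t * h⁻¹ * g = g * (h * t * h⁻¹) * g⁻¹ * g := by rw [e]
        _ = g * (h * t * h⁻¹) := by group⟩
    have hTb : T ≠ ⊥ := fun hb => hne (by
      have : a ∈ T := ⟨ha, Subgroup.mem_centralizer_singleton_iff.2 hga.symm⟩
      rwa [hb, Subgroup.mem_bot] at this)
    refine hg (Subgroup.mem_centralizer_iff.2 fun b hb => ?_)
    exact Subgroup.mem_centralizer_singleton_iff.1 (hjn T hT hTb hb).2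
  have hsurj : ∀ g, g ∉ C → ∀ b ∈ N, ∃ a ∈ N, ⁅g, a⁆ = b := by
    intro g hg b hb
    let τ : N → N := fun a => ⟨⁅g, (a : Q)⁆, hcomm g a⟩
    have hinj : Function.Injective τ := by
      intro x y hxy
      have h : g * (x : Q) * g⁻¹ * (x : Q)⁻¹ = g * (y : Q) * g⁻¹ * (y : Q)⁻¹ :=
        congrArg Subtype.val hxy
      apply Subtype.ext
      rw [← inv_mul_eq_one]
      refine hfix g hg _ (N.mul_mem (N.inv_mem x.2) y.2) ?_
      have hc := hab ((y : Q)⁻¹) (N.inv_mem y.2) x x.2
      have h2 : g * ((x : Q)⁻¹ * y) * g⁻¹ = (x : Q)⁻¹ * y := by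
        calc g * ((x : Q)⁻¹ * y) * g⁻¹
            = (g * (x : Q) * g⁻¹ * (x : Q)⁻¹ * x)⁻¹ * (g * (y : Q) * g⁻¹ * (y : Q)⁻¹ * y) := by group
          _ = (x : Q)⁻¹ * y := by rw [← h]; group
      calc g * ((x : Q)⁻¹ * y) = g * ((x : Q)⁻¹ * y) * g⁻¹ * g := by group
        _ = (x : Q)⁻¹ * y * g := by rw [h2]
    obtain ⟨a, ha⟩ := Finite.surjective_of_injective hinj ⟨b, hb⟩
    exact ⟨a, a.2, congrArg Subtype.val ha⟩
  have hCN : C = N := by
    refine le_antisymm (fun c hc => ?_) fun x hx =>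
      Subgroup.mem_centralizer_iff.2 fun b hb => hab b hb x hx
    obtain ⟨a, ha, hac⟩ := hsurj g₀ hg₀ ⁅g₀, c⁆ (hcomm g₀ c)
    have hac' : a ∈ C := Subgroup.mem_centralizer_iff.2 fun b hb => hab b hb a ha
    set x := a⁻¹ * c with hx
    have hxC : x ∈ C := C.mul_mem (C.inv_mem hac') hc
    have hxg : g₀ * x * g₀⁻¹ = x := by
      simp only [commutatorElement_def] at hac
      calc g₀ * x * g₀⁻¹ = (g₀ * a * g₀⁻¹ * a⁻¹ * a)⁻¹ * (g₀ * c * g₀⁻¹ * c⁻¹ * c) := by
            rw [hx]; group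
        _ = x := by rw [← hac, hx]; group
    have hxZ : x ∈ Subgroup.center Q := by
      refine Subgroup.mem_center_iff.2 fun h => ?_
      have hhx : h * x * h⁻¹ ∈ C := Subgroup.Normal.conj_mem inferInstance x hxC h
      set n := g₀ * h * g₀⁻¹ * h⁻¹ with hn
      have e : g₀ * (h * x * h⁻¹) * g₀⁻¹ = h * x * h⁻¹ := by
        calc g₀ * (h * x * h⁻¹) * g₀⁻¹ = n * h * (g₀ * x * g₀⁻¹) * h⁻¹ * n⁻¹ := by rw [hn]; group
          _ = n * (h * x * h⁻¹) * n⁻¹ := by rw [hxg]; group
          _ = h * x * h⁻¹ := by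
            rw [Subgroup.mem_centralizer_iff.1 hhx n (hcomm g₀ h), mul_inv_cancel_right]
      have hy : h * x * h⁻¹ * x⁻¹ = 1 := by
        refine hfix g₀ hg₀ _ (hcomm h x) ?_
        calc g₀ * (h * x * h⁻¹ * x⁻¹)
            = (g₀ * (h * x * h⁻¹) * g₀⁻¹) * (g₀ * x * g₀⁻¹)⁻¹ * g₀ := by group
          _ = h * x * h⁻¹ * x⁻¹ * g₀ := by rw [e, hxg]
      calc h * x = h * x * h⁻¹ * x⁻¹ * (x * h) := by group
        _ = x * h := by rw [hy, one_mul]
    rw [hZ, Subgroup.mem_bot] at hxZ
    rw [show c = a * x by rw [hx]; group, hxZ, mul_one]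
    exact ha
  have hfix' : ∀ g, g ∉ N → ∀ a ∈ N, g * a = a * g → a = 1 := fun g hg => hfix g (hCN ▸ hg)
  refine ⟨fun g hg => hsurj g (hCN ▸ hg), ?_, ?_, fun h => hg₀ (by rw [hCN, h]; trivial)⟩
  · intro hdvd
    rw [Subgroup.index_eq_card] at hdvd
    obtain ⟨x, hx⟩ := exists_prime_orderOf_dvd_card' (G := Q ⧸ N) q hdvd
    obtain ⟨g, rfl⟩ := QuotientGroup.mk'_surjective N x
    have hg : g ∉ N := fun h => by
      rw [show (QuotientGroup.mk' N g) = 1 from (QuotientGroup.eq_one_iff g).2 h, orderOf_one] at hx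
      exact hq.ne_one hx.symm
    set P := Subgroup.comap (QuotientGroup.mk' N) (Subgroup.zpowers (QuotientGroup.mk' N g)) with hP
    have hPq : IsPGroup q P :=
      (IsPGroup.of_card (n := 1) (by rw [Nat.card_zpowers, hx, pow_one])).comap_of_ker_isPGroup _
        (by rw [QuotientGroup.ker_mk']; exact hNq)
    have hNP : N ≤ P := fun n hn => by
      rw [hP, Subgroup.mem_comap, show QuotientGroup.mk' N n = 1 from (QuotientGroup.eq_one_iff n).2 hn]
      exact Subgroup.one_mem _
    letI : MulAction P N :=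
      { smul := fun u a => ⟨(u : Q) * a * (u : Q)⁻¹, hNn.conj_mem a a.2 u⟩
        one_smul := fun a => Subtype.ext (by show (1 : Q) * a * (1 : Q)⁻¹ = _; group)
        mul_smul := fun u v a => Subtype.ext (by
          show (u * v : Q) * a * (u * v : Q)⁻¹ = (u : Q) * ((v : Q) * a * (v : Q)⁻¹) * (u : Q)⁻¹
          group) }
    have h1 : (1 : N) ∈ MulAction.fixedPoints P N := fun u =>
      Subtype.ext (by show (u : Q) * (1 : Q) * (u : Q)⁻¹ = 1; group)
    obtain ⟨b, hb, hb1⟩ := hPq.exists_fixed_point_of_prime_dvd_card_of_fixed_point N hqd h1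
    have := congrArg Subtype.val (hb ⟨g, Subgroup.mem_zpowers _⟩)
    refine hb1 (Subtype.ext (hfix' g hg b b.2 ?_).symm)
    have h2 : g * (b : Q) * g⁻¹ = b := this
    calc g * (b : Q) = g * (b : Q) * g⁻¹ * g := by group
      _ = b * g := by rw [h2]
  · obtain ⟨a, haN, ha1⟩ := (Subgroup.ne_bot_iff_exists_ne_one.1 hQ).elim
      fun a h => (⟨a, a.2, fun he => h (Subtype.ext he)⟩ : ∃ a ∈ N, a ≠ 1)
    rw [Subgroup.index_eq_card]
    refine Nat.card_le_card_of_injective
      (fun x : Q ⧸ N => Quotient.liftOn' x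
        (fun h => (⟨h * a * h⁻¹, hNn.conj_mem a haN h⟩ : N)) ?_) ?_
    · intro u v huv
      rw [QuotientGroup.leftRel_apply] at huv
      apply Subtype.ext
      show u * a * u⁻¹ = v * a * v⁻¹
      calc u * a * u⁻¹ = u * (a * (u⁻¹ * v) * (u⁻¹ * v)⁻¹) * u⁻¹ := by group
        _ = u * ((u⁻¹ * v) * a * (u⁻¹ * v)⁻¹) * u⁻¹ := by rw [hab a haN _ huv]
        _ = v * a * v⁻¹ := by group
    · intro x y
      induction x using QuotientGroup.induction_on with
      | H u =>
      induction y using QuotientGroup.induction_on with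
      | H v =>
      intro hxy
      rw [QuotientGroup.eq]
      by_contra hn
      refine ha1 (hfix' _ hn a haN ?_)
      have h : u * a * u⁻¹ = v * a * v⁻¹ := congrArg Subtype.val hxy
      calc u⁻¹ * v * a = u⁻¹ * (v * a * v⁻¹) * v := by group
        _ = u⁻¹ * (u * a * u⁻¹) * v := by rw [h]
        _ = a * (u⁻¹ * v) := by group

end Cfsg.Agent.H27
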