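import Mathlib
import Cfsg.Prelude.Def_DegreeGraph
import Cfsg.Agent.H27.DegreeTools
import Cfsg.Agent.H27.JustNonabelian
import Cfsg.Agent.H45.Gallagher
import Cfsg.Agent.H33.DerivedLength
import Cfsg.Agent.S0168
import Cfsg.Agent.S0169
import Cfsg.Agent.S4456

/-!
# Groups with at most three character degrees (Isaacs, 12.15)
-/

set_option autoImplicit false

open scoped commutatorElement ComplexConjugate

namespace Cfsg.Agent.H27.ThreeDeg

universe u

/-- The induction statement. -/
def DL3 (G : Type u) [Group G] : Prop :=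
  ∀ m n : ℕ, (∀ χ : Cfsg.IrrCharacter G,
    Cfsg.charDegree χ.1 = 1 ∨ Cfsg.charDegree χ.1 = m ∨ Cfsg.charDegree χ.1 = n) →
      derivedSeries G 3 = ⊥

variable {G : Type u} [Group G] [Finite G]

/-- Two degrees give derived length two. -/
theorem two_degrees (m : ℕ) (h : ∀ χ : Cfsg.IrrCharacter G,
    Cfsg.charDegree χ.1 = 1 ∨ Cfsg.charDegree χ.1 = m) : derivedSeries G 2 = ⊥ := by
  by_cases hm : m = 0
  · have hl : ∀ χ : Cfsg.IrrCharacter G, χ.1 1 = 1 := by
      intro χ
      rw [H43.irr_charDegree_spec, (h χ).resolve_right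
        (fun h1 => (H43.irr_charDegree_pos χ).ne' (h1.trans hm)), Nat.cast_one]
    refine H33.derivedSeries_two_eq_bot ⟨⟨fun x y => Subtype.ext ?_⟩⟩
    exact H26.comm_iff_forall_irr_one.2 hl x y
  · exact H33.derivedSeries_two_eq_bot ⟨⟨fun x y => Subtype.ext
      (H25.commutator_comm_of_two_degrees h hm x x.2 y y.2)⟩⟩

/-- Case A: a prime divides both degrees. -/
theorem case_common_prime {p m n : ℕ} (hp : p.Prime) (hpm : p ∣ m) (hpn : p ∣ n)
    (hcd : ∀ χ : Cfsg.IrrCharacter G,
      Cfsg.charDegree χ.1 = 1 ∨ Cfsg.charDegree χ.1 = m ∨ Cfsg.charDegree χ.1 = n)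
    (hm : ∃ χ : Cfsg.IrrCharacter G, Cfsg.charDegree χ.1 = m)
    (hm0 : m ≠ 0) (hn0 : n ≠ 0) (hmn : m < n)
    (ih : ∀ (M : Subgroup G), M ≠ ⊤ → DL3 M) : derivedSeries G 3 = ⊥ := by
  classical
  haveI := Fintype.ofFinite G
  haveI := Fact.mk hp
  obtain ⟨M, hMn, hMc, k, hk⟩ := S4456.result p hp fun χ hne => by
    rcases (hcd χ).resolve_left hne with h | h <;> rw [h] <;> assumption
  haveI := hMn
  haveI := Fintype.ofFinite M
  set m' := m / p ^ m.factorization p with hm'
  set n' := n / p ^ n.factorization p with hn'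
  have hMd : ∀ θ : Cfsg.IrrCharacter M, Cfsg.charDegree θ.1 = 1 ∨
      Cfsg.charDegree θ.1 = m' ∨ Cfsg.charDegree θ.1 = n' := by
    intro θ
    obtain ⟨χ, hχ⟩ := H44.exists_irr_over M θ
    obtain ⟨hd1, hd2⟩ := Deg.constituent_dvd M χ θ hχ
    rw [hk, Nat.dvd_prime_pow hp] at hd2
    obtain ⟨j, -, hj⟩ := hd2
    have hs : ¬ p ∣ Cfsg.charDegree θ.1 := fun hd =>
      hp.coprime_iff_not_dvd.1 hMc.symm (hd.trans (H43.irr_charDegree_dvd θ))
    have hc : Cfsg.charDegree χ.1 = p ^ j * Cfsg.charDegree θ.1 := by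
      rw [← hj, Nat.div_mul_cancel hd1]
    have key : Cfsg.charDegree θ.1 =
        Cfsg.charDegree χ.1 / p ^ (Cfsg.charDegree χ.1).factorization p := by
      rw [hc, Nat.factorization_mul (pow_ne_zero _ hp.ne_zero) (H43.irr_charDegree_pos θ).ne',
        Finsupp.add_apply, hp.factorization_pow, Finsupp.single_eq_same,
        Nat.factorization_eq_zero_of_not_dvd hs, add_zero,
        Nat.mul_div_cancel_left _ (pow_pos hp.pos _)]
    rcases hcd χ with h | h | h <;> rw [h] at key
    · left; simpa using key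
    · exact Or.inr (Or.inl key)
    · exact Or.inr (Or.inr key)
  have hMtop : M ≠ ⊤ := by
    intro h
    obtain ⟨χ, hχ⟩ := hm
    have h1 : p ∣ Nat.card G := (hχ ▸ hpm).trans (H43.irr_charDegree_dvd χ)
    rw [← Subgroup.card_top (G := G), ← h] at h1
    exact hp.coprime_iff_not_dvd.1 hMc.symm h1
  have hM3 : derivedSeries M 3 = ⊥ := ih M hMtop m' n' hMd
  by_cases hboth : m' ≠ 1 ∧ n' ≠ 1
  · -- both degrees have a part prime to `p`: then `G' ≤ M'`
    set X : Subgroup G := (commutator M).map M.subtype with hX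
    haveI : X.Normal := by
      rw [hX, commutator, Subgroup.map_commutator, ← MonoidHom.range_eq_map, Subgroup.range_subtype]
      infer_instance
    have hXM : X ≤ M := Subgroup.map_subtype_le _
    have hGX : commutator G ≤ X := by
      intro y hy
      have : ∀ η : Cfsg.IrrCharacter (G ⧸ X), η.1 1 = 1 := by
        intro η
        let Mb : Subgroup (G ⧸ X) := M.map (QuotientGroup.mk' X)
        haveI : Mb.Normal := hMn.map _ (QuotientGroup.mk'_surjective X)
        have hMb : ∀ a ∈ Mb, ∀ b ∈ Mb, a * b = b * a := by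
          rintro _ ⟨a, ha, rfl⟩ _ ⟨b, hb, rfl⟩
          rw [← commutatorElement_eq_one_iff_mul_comm, ← map_commutatorElement]
          exact (QuotientGroup.eq_one_iff _).2 ⟨⁅(⟨a, ha⟩ : M), ⟨b, hb⟩⁆,
            Subgroup.commutator_mem_commutator (Subgroup.mem_top _) (Subgroup.mem_top _), rfl⟩
        have hid : Mb.index = p ^ k := by
          rw [← hk]
          exact Subgroup.index_map_eq _ (QuotientGroup.mk'_surjective X)
            (by rw [QuotientGroup.ker_mk']; exact hXM)
        obtain ⟨d, ρ, hρ, e⟩ := η.2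
        haveI := hρ
        have hd : Cfsg.charDegree η.1 = d := by simp [Cfsg.charDegree, ← e]
        have h1 := S0169.result ρ Mb hMb
        rw [Module.finrank_fin_fun, hid, Nat.dvd_prime_pow hp] at h1
        obtain ⟨j, -, hj⟩ := h1
        have h2 := hcd (Deg.infl X η)
        rw [Deg.charDegree_infl, hd, hj] at h2
        rw [H43.irr_charDegree_spec, hd, hj]
        rcases h2 with h | h | h
        · rw [h, Nat.cast_one]
        · refine absurd ?_ hboth.1
          rw [hm', ← h, hp.factorization_pow, Finsupp.single_eq_same, Nat.div_self (pow_pos hp.pos j)]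
        · refine absurd ?_ hboth.2
          rw [hn', ← h, hp.factorization_pow, Finsupp.single_eq_same, Nat.div_self (pow_pos hp.pos j)]
      have hcm := H26.comm_iff_forall_irr_one.2 this
      have : commutator G ≤ (QuotientGroup.mk' X).ker := by
        rw [commutator, Subgroup.commutator_le]
        intro a _ b _
        rw [MonoidHom.mem_ker, map_commutatorElement, commutatorElement_eq_one_iff_mul_comm]
        exact hcm _ _
      rw [QuotientGroup.ker_mk'] at this
      exact this hy
    have h1 : derivedSeries G 1 ≤ X := by rw [derivedSeries_one]; exact hGX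
    rw [eq_bot_iff]
    intro y hy
    have h2 : derivedSeries G (1 + 2) ≤ (derivedSeries X 2).map X.subtype :=
      H33.derivedSeries_add_le h1 2
    have hcomp : (derivedSeries X 2).map X.subtype ≤ (derivedSeries M 3).map M.subtype := by
      have hX1 : X = (derivedSeries M 1).map M.subtype := by rw [derivedSeries_one]
      have hXX : ⁅X, X⁆ = (derivedSeries M 2).map M.subtype := by
        rw [hX1, ← Subgroup.map_commutator]; rfl
      have e2 : (derivedSeries X 2).map X.subtype = ⁅⁅X, X⁆, ⁅X, X⁆⁆ := by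
        show Subgroup.map X.subtype (⁅⁅(⊤ : Subgroup X), (⊤ : Subgroup X)⁆, ⁅(⊤ : Subgroup X), (⊤ : Subgroup X)⁆⁆) = _
        rw [Subgroup.map_commutator, Subgroup.map_commutator, ← MonoidHom.range_eq_map,
          Subgroup.range_subtype]
      rw [e2, hXX, ← Subgroup.map_commutator]
      exact le_of_eq rfl
    rw [hM3, Subgroup.map_bot] at hcomp
    exact hcomp (h2 hy)
  -- one of the degrees is a power of `p`
  obtain ⟨a, b, hab, ha1⟩ : ∃ a b : ℕ, ((a = m ∧ b = n) ∨ (a = n ∧ b = m)) ∧
      a / p ^ a.factorization p = 1 := by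
    rcases not_and_or.1 hboth with h | h <;> push Not at h
    · exact ⟨m, n, Or.inl ⟨rfl, rfl⟩, h⟩
    · exact ⟨n, m, Or.inr ⟨rfl, rfl⟩, h⟩
  set b' := b / p ^ b.factorization p with hb'
  have hMd2 : ∀ θ : Cfsg.IrrCharacter M, Cfsg.charDegree θ.1 = 1 ∨ Cfsg.charDegree θ.1 = b' := by
    intro θ
    rcases hab with ⟨rfl, rfl⟩ | ⟨rfl, rfl⟩ <;> rcases hMd θ with h | h | h <;> simp_all
  have hM2 : derivedSeries M 2 = ⊥ := two_degrees b' hMd2
  by_cases hb1 : b' = 1
  · -- `M` is abelian: the group is monomial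
    have hMl : ∀ θ : Cfsg.IrrCharacter M, θ.1 1 = 1 := fun θ => by
      rw [H43.irr_charDegree_spec, (hMd2 θ).elim id (fun h => h.trans hb1), Nat.cast_one]
    have hMab : ∀ x ∈ M, ∀ y ∈ M, x * y = y * x := fun x hx y hy =>
      congrArg Subtype.val (H26.comm_iff_forall_irr_one.2 hMl ⟨x, hx⟩ ⟨y, hy⟩)
    haveI hnil : Group.IsNilpotent (G ⧸ M) :=
      (IsPGroup.of_card (p := p) (n := k) (by rw [← Subgroup.index_eq_card]; exact hk)).isNilpotent
    have hmono : ∀ χ : Cfsg.IrrCharacter G, ∃ (H : Subgroup G) (lam : H →* ℂˣ),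
        χ.1 = Cfsg.indFun H (fun h => (lam h : ℂ)) ∧ H.index = Cfsg.charDegree χ.1 := by
      intro χ
      obtain ⟨H, lam, hl⟩ :=
        H25.monomial_of_nilpotent_quotient (Nat.card G) G M hMab hnil le_rfl χ.1 χ.2
      exact ⟨H, lam, hl, by simp [Cfsg.charDegree, hl, H25.indFun_one]⟩
    have hlin : ∀ χ : Cfsg.IrrCharacter G, Cfsg.charDegree χ.1 = 1 →
        derivedSeries G 1 ≤ H43.charKer χ := fun χ h => by
      rw [derivedSeries_one]; exact Deg.commutator_le_charKer h
    have hanti := derivedSeries_antitone (G := G)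
    have hmm : ∀ χ : Cfsg.IrrCharacter G, Cfsg.charDegree χ.1 = m →
        derivedSeries G 2 ≤ H43.charKer χ := by
      intro χ h
      obtain ⟨H, lam, hl, hi⟩ := hmono χ
      have h2 : 2 ≤ H.index := by
        rw [hi, h]; exact le_trans hp.two_le (Nat.le_of_dvd (Nat.pos_of_ne_zero hm0) hpm)
      rw [derivedSeries_succ]
      refine Deg.taketa_step (derivedSeries G 1) χ H lam hl (fun ψ hψ => hlin ψ ?_) h2
      rw [hi, h] at hψ
      rcases hcd ψ with h1 | h1 | h1 <;> omega
    rw [eq_bot_iff]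
    intro y hy
    refine Subgroup.mem_bot.2 (Deg.eq_one_of_forall_mem_charKer fun χ => ?_)
    rcases hcd χ with h | h | h
    · exact hlin χ h (hanti (by omega) hy)
    · exact hmm χ h (hanti (by omega) hy)
    · obtain ⟨H, lam, hl, hi⟩ := hmono χ
      have h2 : 2 ≤ H.index := by
        rw [hi, h]; exact le_trans hp.two_le (Nat.le_of_dvd (Nat.pos_of_ne_zero hn0) hpn)
      rw [derivedSeries_succ] at hy
      refine Deg.taketa_step (derivedSeries G 2) χ H lam hl (fun ψ hψ => ?_) h2 hy
      rw [hi, h] at hψ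
      rcases hcd ψ with h1 | h1 | h1
      · exact (hanti (by omega)).trans (hlin ψ h1)
      · exact hmm ψ h1
      · omega
  -- `G / M'` has two degrees
  set X : Subgroup G := (commutator M).map M.subtype with hX
  haveI : X.Normal := by
    rw [hX, commutator, Subgroup.map_commutator, ← MonoidHom.range_eq_map, Subgroup.range_subtype]
    infer_instance
  have hXM : X ≤ M := Subgroup.map_subtype_le _
  have hQ : ∀ η : Cfsg.IrrCharacter (G ⧸ X),
      Cfsg.charDegree η.1 = 1 ∨ Cfsg.charDegree η.1 = a := by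
    intro η
    let Mb : Subgroup (G ⧸ X) := M.map (QuotientGroup.mk' X)
    haveI : Mb.Normal := hMn.map _ (QuotientGroup.mk'_surjective X)
    have hMb : ∀ x ∈ Mb, ∀ y ∈ Mb, x * y = y * x := by
      rintro _ ⟨x, hx, rfl⟩ _ ⟨y, hy, rfl⟩
      rw [← commutatorElement_eq_one_iff_mul_comm, ← map_commutatorElement]
      exact (QuotientGroup.eq_one_iff _).2 ⟨⁅(⟨x, hx⟩ : M), ⟨y, hy⟩⁆,
        Subgroup.commutator_mem_commutator (Subgroup.mem_top _) (Subgroup.mem_top _), rfl⟩
    have hid : Mb.index = p ^ k := by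
      rw [← hk]
      exact Subgroup.index_map_eq _ (QuotientGroup.mk'_surjective X)
        (by rw [QuotientGroup.ker_mk']; exact hXM)
    obtain ⟨d, ρ, hρ, e⟩ := η.2
    haveI := hρ
    have hd : Cfsg.charDegree η.1 = d := by simp [Cfsg.charDegree, ← e]
    have h1 := S0169.result ρ Mb hMb
    rw [Module.finrank_fin_fun, hid, Nat.dvd_prime_pow hp] at h1
    obtain ⟨j, -, hj⟩ := h1
    have h2 := hcd (Deg.infl X η)
    rw [Deg.charDegree_infl] at h2
    have hbne : Cfsg.charDegree η.1 ≠ b := fun h => hb1 (by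
      rw [hb', ← h, hd, hj, hp.factorization_pow, Finsupp.single_eq_same,
        Nat.div_self (pow_pos hp.pos j)])
    rcases hab with ⟨rfl, rfl⟩ | ⟨rfl, rfl⟩ <;> tauto
  have hQ2 := two_degrees a hQ
  have h2X : derivedSeries G 2 ≤ X := by
    intro y hy
    have h3 := map_derivedSeries_le_derivedSeries (QuotientGroup.mk' X) 2
      (Subgroup.mem_map_of_mem _ hy)
    rw [hQ2, Subgroup.mem_bot] at h3
    exact (QuotientGroup.eq_one_iff y).1 h3
  rw [eq_bot_iff, derivedSeries_succ]
  refine (Subgroup.commutator_mono h2X h2X).trans (le_of_eq ?_)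
  rw [hX, ← Subgroup.map_commutator, show ⁅commutator M, commutator M⁆ = derivedSeries M 2 from rfl,
    hM2, Subgroup.map_bot]

/-- Case B with `G' = G''`: impossible. -/
theorem case_perfect_derived {m n : ℕ} (hmn : m < n) (hcop : m.Coprime n) (hm1 : 1 < m)
    (hcd : ∀ χ : Cfsg.IrrCharacter G,
      Cfsg.charDegree χ.1 = 1 ∨ Cfsg.charDegree χ.1 = m ∨ Cfsg.charDegree χ.1 = n)
    (hm : ∃ χ : Cfsg.IrrCharacter G, Cfsg.charDegree χ.1 = m)
    (hn : ∃ χ : Cfsg.IrrCharacter G, Cfsg.charDegree χ.1 = n)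
    (hperf : derivedSeries G 2 = derivedSeries G 1)
    (ih : ∀ (X : Subgroup G) [X.Normal], X ≠ ⊥ → DL3 (G ⧸ X)) : derivedSeries G 3 = ⊥ := by
  classical
  haveI := Fintype.ofFinite G
  by_contra hne
  set D := commutator G with hD
  haveI := Fintype.ofFinite D
  have h31 : derivedSeries G 3 = D := by
    show derivedSeries G 3 = commutator G
    rw [derivedSeries_succ, hperf, ← derivedSeries_succ, hperf, derivedSeries_one]
  -- every non-trivial normal subgroup contains `D`
  have hmin : ∀ X : Subgroup G, X.Normal → X ≠ ⊥ → D ≤ X := by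
    intro X hX hXb y hy
    haveI := hX
    have h3 : derivedSeries (G ⧸ X) 3 = ⊥ := ih X hXb m n fun η => by
      have := hcd (Deg.infl X η)
      rwa [Deg.charDegree_infl] at this
    rw [← h31] at hy
    have h4 := map_derivedSeries_le_derivedSeries (QuotientGroup.mk' X) 3
      (Subgroup.mem_map_of_mem _ hy)
    rw [h3, Subgroup.mem_bot] at h4
    exact (QuotientGroup.eq_one_iff y).1 h4
  have hlinear : ∀ χ : Cfsg.IrrCharacter G, D ≤ H43.charKer χ → Cfsg.charDegree χ.1 = 1 :=
    fun χ h => Deg.charDegree_eq_one_of_commutator_le h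
  have hfaith : ∀ χ : Cfsg.IrrCharacter G, Cfsg.charDegree χ.1 ≠ 1 → H43.charKer χ = ⊥ := by
    intro χ hχ
    by_contra hb
    exact hχ (hlinear χ (hmin _ inferInstance hb))
  have hDb : D ≠ ⊥ := fun h => hne (h31.trans h)
  have hn1 : 1 < n := by omega
  -- products
  let pr : Cfsg.IrrCharacter G → Cfsg.IrrCharacter G → Cfsg.IrrCharacter G → ℕ := fun χ ψ η =>
    H43.mult (χ.1 * ψ.1) η
  have hdeg : ∀ χ ψ : Cfsg.IrrCharacter G,
      Cfsg.charDegree χ.1 * Cfsg.charDegree ψ.1 = ∑ η, pr χ ψ η * Cfsg.charDegree η.1 := by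
    intro χ ψ
    have h := H43.apply_one_eq_sum_mult
      (H26.isCharacter_mul (H26.irr_isCharacter χ) (H26.irr_isCharacter ψ))
    rw [Pi.mul_apply, H43.irr_charDegree_spec, H43.irr_charDegree_spec] at h
    exact_mod_cast h
  have hrot : ∀ χ ψ η : Cfsg.IrrCharacter G, pr χ ψ η = pr (H26.conjIrr χ) η ψ := by
    intro χ ψ η
    have h1 := H43.classInner_eq_mult
      (H26.isCharacter_mul (H26.irr_isCharacter χ) (H26.irr_isCharacter ψ)) η
    have h2 := H43.classInner_eq_mult
      (H26.isCharacter_mul (H26.irr_isCharacter (H26.conjIrr χ)) (H26.irr_isCharacter η)) ψ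
    have h3 : Cfsg.classInner (χ.1 * ψ.1) η.1 =
        conj (Cfsg.classInner ((H26.conjIrr χ).1 * η.1) ψ.1) := by
      simp only [Cfsg.classInner, map_mul, map_inv₀, Complex.conj_natCast, map_sum]
      congr 1
      refine Finset.sum_congr rfl fun g _ => ?_
      show χ.1 g * ψ.1 g * conj (η.1 g) = conj (conj (χ.1 g) * η.1 g) * conj (conj (ψ.1 g))
      rw [map_mul, Complex.conj_conj, Complex.conj_conj]
      ring
    rw [h1, h2, Complex.conj_natCast] at h3
    exact_mod_cast h3
  have hconjdeg : ∀ χ : Cfsg.IrrCharacter G,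
      Cfsg.charDegree (H26.conjIrr χ).1 = Cfsg.charDegree χ.1 := fun χ => by
    simp [Cfsg.charDegree, H26.conjIrr]
  -- no linear constituent in a product of different degrees
  have hlinc : ∀ χ ψ η : Cfsg.IrrCharacter G, Cfsg.charDegree η.1 = 1 → pr χ ψ η ≠ 0 →
      Cfsg.charDegree χ.1 = Cfsg.charDegree ψ.1 ∧
        ∀ d ∈ D, conj (χ.1 d) = ψ.1 d := by
    intro χ ψ η hη h
    obtain ⟨f, hf⟩ := Deg.exists_hom hη
    have hirr : Cfsg.IsIrrCharacter G ((H26.conjIrr χ).1 * η.1) := by
      have : (H26.conjIrr χ).1 * η.1 = fun g => (f g : ℂ) * (H26.conjIrr χ).1 g := funext fun g => by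
        rw [Pi.mul_apply, ← hf, mul_comm]
      rw [this]
      exact H56.isIrrCharacter_hom_mul (H26.conjIrr χ).2 f
    rw [hrot] at h
    have heq : ψ.1 = (H26.conjIrr χ).1 * η.1 := by
      by_contra hne'
      refine h (H43.mult_eq_of_classInner (ψ := ψ) ?_)
      have h1 := H26.classInner_irr ⟨_, hirr⟩ ψ
      rw [if_neg fun e => hne' (congrArg Subtype.val e).symm] at h1
      rw [Nat.cast_zero]
      exact h1
    have hη1 : ∀ d ∈ D, η.1 d = 1 := fun d hd => by
      rw [H43.mem_charKer.1 (Deg.commutator_le_charKer hη hd), H43.irr_charDegree_spec, hη,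
        Nat.cast_one]
    refine ⟨?_, fun d hd => ?_⟩
    · rw [← Nat.cast_inj (R := ℂ), ← H43.irr_charDegree_spec, ← H43.irr_charDegree_spec, heq,
        Pi.mul_apply, hη1 1 D.one_mem, mul_one, H43.irr_charDegree_spec (H26.conjIrr χ), hconjdeg,
        H43.irr_charDegree_spec]
    · rw [heq, Pi.mul_apply, hη1 d hd, mul_one]; rfl
  -- the mixed products
  have hmix : ∀ χ ψ η₀ η : Cfsg.IrrCharacter G, Cfsg.charDegree χ.1 = m → Cfsg.charDegree ψ.1 = n →
      pr χ ψ η₀ ≠ 0 → Cfsg.charDegree η₀.1 = m → pr χ ψ η ≠ 0 → Cfsg.charDegree η.1 = m := by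
    intro χ ψ η₀ η hχ hψ h0 hd0 h
    by_contra hne'
    have hηn : Cfsg.charDegree η.1 = n := by
      refine ((hcd η).resolve_left fun h1 => ?_).resolve_left hne'
      exact hmn.ne (hχ ▸ hψ ▸ (hlinc χ ψ η h1 h).1)
    set F := ∑ η ∈ Finset.univ.filter (fun η : Cfsg.IrrCharacter G => Cfsg.charDegree η.1 = n),
      pr χ ψ η with hF
    set E := ∑ η ∈ Finset.univ.filter (fun η : Cfsg.IrrCharacter G => ¬ Cfsg.charDegree η.1 = n),
      pr χ ψ η with hE
    have hsum : m * n = F * n + E * m := by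
      have h1 := hdeg χ ψ
      rw [hχ, hψ] at h1
      rw [h1, ← Finset.sum_filter_add_sum_filter_not Finset.univ
        (fun η : Cfsg.IrrCharacter G => Cfsg.charDegree η.1 = n), hF, hE, Finset.sum_mul,
        Finset.sum_mul]
      congr 1
      · exact Finset.sum_congr rfl fun η hη => by rw [(Finset.mem_filter.1 hη).2]
      · refine Finset.sum_congr rfl fun η hη => ?_
        by_cases hz : pr χ ψ η = 0
        · rw [hz, zero_mul, zero_mul]
        · rcases hcd η with h2 | h2 | h2
          · exact absurd (hχ ▸ hψ ▸ (hlinc χ ψ η h2 hz).1) hmn.ne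
          · rw [h2]
          · exact absurd h2 (Finset.mem_filter.1 hη).2
    have hFpos : 0 < F := lt_of_lt_of_le (Nat.pos_of_ne_zero h)
      (Finset.single_le_sum (fun _ _ => Nat.zero_le _)
        (Finset.mem_filter.2 ⟨Finset.mem_univ η, hηn⟩))
    have hEpos : 0 < E := lt_of_lt_of_le (Nat.pos_of_ne_zero h0)
      (Finset.single_le_sum (fun _ _ => Nat.zero_le _)
        (Finset.mem_filter.2 ⟨Finset.mem_univ η₀, by omega⟩))
    have hdvd : m ∣ F := by
      refine hcop.dvd_of_dvd_mul_right ((Nat.dvd_add_iff_left (dvd_mul_left m E)).2 ?_)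
      rw [← hsum]; exact dvd_mul_right m n
    have h3 := Nat.le_of_dvd hFpos hdvd
    have h4 : m * n ≤ F * n := Nat.mul_le_mul_right _ h3
    have h5 : 0 < E * m := Nat.mul_pos hEpos (by omega)
    omega
  -- no constituent of degree `n` in a product of two characters of degree `m`
  have hmain : ∀ χ χ' ψ : Cfsg.IrrCharacter G, Cfsg.charDegree χ.1 = m → Cfsg.charDegree χ'.1 = m →
      Cfsg.charDegree ψ.1 = n → pr χ χ' ψ = 0 := by
    have hnonassoc : ∀ χ χ' ψ : Cfsg.IrrCharacter G, Cfsg.charDegree χ.1 = m →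
        Cfsg.charDegree χ'.1 = m → Cfsg.charDegree ψ.1 = n → pr χ χ' ψ ≠ 0 →
        ∀ d ∈ D, conj (χ.1 d) = χ'.1 d := by
      intro χ χ' ψ hχ hχ' hψ h
      by_contra hassoc
      set B := ∑ η ∈ Finset.univ.filter (fun η : Cfsg.IrrCharacter G => Cfsg.charDegree η.1 = n),
        pr χ χ' η with hB
      set E := ∑ η ∈ Finset.univ.filter (fun η : Cfsg.IrrCharacter G => ¬ Cfsg.charDegree η.1 = n),
        pr χ χ' η with hE
      have hsum : m * m = B * n + E * m := by
        have h1 := hdeg χ χ'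
        rw [hχ, hχ'] at h1
        rw [h1, ← Finset.sum_filter_add_sum_filter_not Finset.univ
          (fun η : Cfsg.IrrCharacter G => Cfsg.charDegree η.1 = n), hB, hE, Finset.sum_mul,
          Finset.sum_mul]
        congr 1
        · exact Finset.sum_congr rfl fun η hη => by rw [(Finset.mem_filter.1 hη).2]
        · refine Finset.sum_congr rfl fun η hη => ?_
          by_cases hz : pr χ χ' η = 0
          · rw [hz, zero_mul, zero_mul]
          · rcases hcd η with h2 | h2 | h2
            · exact absurd (hlinc χ χ' η h2 hz).2 hassoc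
            · rw [h2]
            · exact absurd h2 (Finset.mem_filter.1 hη).2
      have hBpos : 0 < B := lt_of_lt_of_le (Nat.pos_of_ne_zero h)
        (Finset.single_le_sum (fun _ _ => Nat.zero_le _)
          (Finset.mem_filter.2 ⟨Finset.mem_univ ψ, hψ⟩))
      have hdvd : m ∣ B := by
        refine hcop.dvd_of_dvd_mul_right ((Nat.dvd_add_iff_left (dvd_mul_left m E)).2 ?_)
        rw [← hsum]; exact dvd_mul_right m m
      have h3 := Nat.le_of_dvd hBpos hdvd
      have h4 : m * n ≤ B * n := Nat.mul_le_mul_right _ h3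
      have h5 : m * m < m * n := by nlinarith
      omega
    intro χ χ' ψ hχ hχ' hψ
    by_contra h
    -- `χ'` is a constituent of `conj χ * ψ`
    set χb := H26.conjIrr χ with hχb
    have hb : Cfsg.charDegree χb.1 = m := by rw [hχb, hconjdeg, hχ]
    have h1 : pr χb ψ χ' ≠ 0 := by rw [hrot] at h; exact h
    -- on `D` the product is `n` times `conj χ`
    have hval : ∀ d ∈ D, χb.1 d * ψ.1 d = (n : ℂ) * χb.1 d := by
      intro d hd
      have hdec := congrFun (H43.eq_sum_mult
        (H26.isCharacter_mul (H26.irr_isCharacter χb) (H26.irr_isCharacter ψ))) d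
      rw [Pi.mul_apply, Finset.sum_apply] at hdec
      rw [hdec]
      have hterm : ∀ η, ((pr χb ψ η : ℂ) • η.1) d = (pr χb ψ η : ℂ) * χb.1 d := by
        intro η
        rw [Pi.smul_apply, smul_eq_mul]
        by_cases hz : pr χb ψ η = 0
        · rw [hz, Nat.cast_zero, zero_mul, zero_mul]
        have hm' := hmix χb ψ χ' η hb hψ h1 hχ' hz
        have h2 : pr χ η ψ ≠ 0 := by
          rw [hrot]; exact hz
        rw [← hnonassoc χ η ψ hχ hm' hψ h2 d hd]
        rfl
      rw [Finset.sum_congr rfl fun η _ => hterm η, ← Finset.sum_mul]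
      congr 1
      have hs : m * n = (∑ η, pr χb ψ η) * m := by
        have h3 := hdeg χb ψ
        rw [hb, hψ] at h3
        rw [h3, Finset.sum_mul]
        refine Finset.sum_congr rfl fun η _ => ?_
        by_cases hz : pr χb ψ η = 0
        · rw [hz, zero_mul, zero_mul]
        · rw [hmix χb ψ χ' η hb hψ h1 hχ' hz]
      have : ∑ η, pr χb ψ η = n := Nat.eq_of_mul_eq_mul_right (by omega : 0 < m) (by linarith)
      exact_mod_cast this
    have hvan : ∀ d ∈ D, d ≠ 1 → χb.1 d = 0 := by
      intro d hd hd1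
      by_contra hnz
      have h2 : ψ.1 d = ψ.1 1 := by
        rw [H43.irr_charDegree_spec, hψ]
        exact mul_left_cancel₀ hnz (by linear_combination hval d hd)
      have : d ∈ H43.charKer ψ := h2
      rw [hfaith ψ (by omega), Subgroup.mem_bot] at this
      exact hd1 this
    -- so the trivial character of `D` occurs
    have hinner : Cfsg.classInner (fun d : D => χb.1 d) (H26.oneIrr D).1 =
        (Nat.card D : ℂ)⁻¹ * (m : ℂ) := by
      rw [Cfsg.classInner, Finset.sum_eq_single (1 : D)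
        (fun d _ hd => by rw [hvan d d.2 (fun e => hd (Subtype.ext e)), zero_mul])
        (fun h => absurd (Finset.mem_univ _) h)]
      simp [H26.oneIrr_val, H43.irr_charDegree_spec, hb]
    have hmz : H43.restrMult D χb (H26.oneIrr D) ≠ 0 := by
      intro hz
      have hce := H43.classInner_eq_mult (H43.isCharacter_restr D χb) (H26.oneIrr D)
      rw [show H43.mult (fun n : D => χb.1 n) (H26.oneIrr D) = 0 from hz, hinner, Nat.cast_zero]
        at hce
      rcases mul_eq_zero.1 hce with h2 | h2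
      · exact (inv_ne_zero (Nat.cast_ne_zero.2 Nat.card_pos.ne')) h2
      · exact (Nat.cast_ne_zero.2 (by omega : m ≠ 0)) h2
    have := hlinear χb (H43.le_charKer_of_one χb D hmz)
    omega
  -- Burnside-Brauer
  obtain ⟨χ, hχ⟩ := hm
  obtain ⟨ψ, hψ⟩ := hn
  obtain ⟨d, ρ, hρ, e⟩ := χ.2
  have hinj : Function.Injective ρ := by
    intro a b hab
    have h1 : ρ (a⁻¹ * b) = 1 := by
      rw [map_mul, ← hab, ← map_mul, inv_mul_cancel, map_one]
    have h2 : a⁻¹ * b ∈ H43.charKer χ := by
      rw [H43.mem_charKer, ← e, ρ.char_one, H25.char_eq_degree_iff]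
      exact h1
    rw [hfaith χ (by omega), Subgroup.mem_bot, inv_mul_eq_one] at h2
    exact h2
  obtain ⟨i, -, hi⟩ := S0168.result ρ hinj ψ.1 ψ.2
  rw [e] at hi
  refine hi ?_
  -- powers of `χ` have constituents of degree `1` or `m` only
  have hpow : ∀ i : ℕ, ∃ c : Cfsg.IrrCharacter G → ℂ, (fun g => χ.1 g ^ i) = ∑ η, c η • η.1 ∧
      ∀ η, c η ≠ 0 → Cfsg.charDegree η.1 = 1 ∨ Cfsg.charDegree η.1 = m := by
    intro i
    induction i with
    | zero =>
      refine ⟨fun η => if η = H26.oneIrr G then 1 else 0, ?_, fun η h => ?_⟩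
      · funext g
        rw [Finset.sum_apply, Finset.sum_eq_single (H26.oneIrr G) (fun b _ hb => by simp [hb])
          (fun h => absurd (Finset.mem_univ _) h)]
        simp [H26.oneIrr_val]
      · left
        rw [show η = H26.oneIrr G by by_contra hne'; simp [hne'] at h, Deg.charDegree_oneIrr]
    | succ i ih' =>
      obtain ⟨c, hc, hcd'⟩ := ih'
      refine ⟨fun η => ∑ θ, c θ * (pr χ θ η : ℂ), ?_, fun η h => ?_⟩
      · funext g
        rw [pow_succ, congrFun hc g, Finset.sum_apply, Finset.sum_mul, Finset.sum_apply]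
        have : ∀ θ : Cfsg.IrrCharacter G, (c θ • θ.1) g * χ.1 g =
            ∑ η, c θ * (pr χ θ η : ℂ) * η.1 g := by
          intro θ
          have hdec := congrFun (H43.eq_sum_mult
            (H26.isCharacter_mul (H26.irr_isCharacter χ) (H26.irr_isCharacter θ))) g
          rw [Pi.mul_apply, Finset.sum_apply] at hdec
          rw [Pi.smul_apply, smul_eq_mul, mul_assoc, mul_comm (θ.1 g), hdec, Finset.mul_sum]
          refine Finset.sum_congr rfl fun η _ => ?_
          rw [Pi.smul_apply, smul_eq_mul, ← mul_assoc]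
        rw [Finset.sum_congr rfl fun θ _ => this θ, Finset.sum_comm]
        refine Finset.sum_congr rfl fun η _ => ?_
        rw [Pi.smul_apply, smul_eq_mul, Finset.sum_mul]
      · obtain ⟨θ, -, hθ⟩ := Finset.exists_ne_zero_of_sum_ne_zero h
        have hcθ : c θ ≠ 0 := left_ne_zero_of_mul hθ
        have hpθ : pr χ θ η ≠ 0 := fun h0 => right_ne_zero_of_mul hθ (by rw [h0, Nat.cast_zero])
        rcases hcd η with h1 | h1 | h1
        · exact Or.inl h1
        · exact Or.inr h1
        exfalso
        rcases hcd' θ hcθ with h2 | h2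
        · obtain ⟨f, hf⟩ := Deg.exists_hom h2
          have hirr : Cfsg.IsIrrCharacter G (χ.1 * θ.1) := by
            have : χ.1 * θ.1 = fun g => (f g : ℂ) * χ.1 g := funext fun g => by
              rw [Pi.mul_apply, ← hf, mul_comm]
            rw [this]
            exact H56.isIrrCharacter_hom_mul χ.2 f
          have h3 := H26.classInner_irr ⟨_, hirr⟩ η
          have heq : η = ⟨_, hirr⟩ := by
            by_contra hne'
            rw [if_neg (Ne.symm hne')] at h3
            exact hpθ (H43.mult_eq_of_classInner (by rw [Nat.cast_zero]; exact h3))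
          have h4 : Cfsg.charDegree η.1 = m := by
            rw [← Nat.cast_inj (R := ℂ), ← H43.irr_charDegree_spec, heq]
            show χ.1 1 * θ.1 1 = _
            rw [H43.irr_charDegree_spec, H43.irr_charDegree_spec, hχ, h2, Nat.cast_one, mul_one]
          omega
        · exact hpθ (hmain χ θ η hχ h2 h1)
  obtain ⟨c, hc, hcd'⟩ := hpow i
  rw [hc, H26.classInner_sum_left]
  refine Finset.sum_eq_zero fun η _ => ?_
  rw [H26.classInner_smul_left]
  by_cases hcη : c η = 0
  · rw [hcη, zero_mul]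
  rw [H26.classInner_irr, if_neg, mul_zero]
  intro heq
  have := hcd' η hcη
  rw [show η = ψ from Subtype.ext (congrArg Subtype.val heq), hψ] at this
  omega

end Cfsg.Agent.H27.ThreeDeg
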