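import Mathlib
import Cfsg.Agent.H27.ThreeDegrees

/-!
# Groups with at most three character degrees have derived length at most three
-/

set_option autoImplicit false

open scoped commutatorElement ComplexConjugate

namespace Cfsg.Agent.H27.ThreeDeg

universe u

variable {G : Type u} [Group G] [Finite G]

/-- In the coprime case, a linear character of the Frobenius kernel can be chosen so that the
twist has inertia group inside the kernel. -/
theorem exists_twist_inertia {Q : Type u} [Group Q] [Finite Q] (π : G →* Q)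
    (hπ : Function.Surjective π) (L : Subgroup G) [L.Normal] (hL : L = (commutator Q).comap π)
    (hab : ∀ a ∈ commutator Q, ∀ b ∈ commutator Q, a * b = b * a)
    (hsurj : ∀ g : Q, g ∉ commutator Q → ∀ b ∈ commutator Q, ∃ a ∈ commutator Q, ⁅g, a⁆ = b)
    (hle : (commutator Q).index ≤ Nat.card (commutator Q))
    (ψ : Cfsg.IrrCharacter L)
    (hψ : Cfsg.IsIrrCharacter (π.ker.subgroupOf L) fun k : π.ker.subgroupOf L => ψ.1 k) :
    ∃ φ : Cfsg.IrrCharacter L, φ.1 1 = ψ.1 1 ∧ H44.inertia L φ.1 ≤ L := by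
  classical
  haveI := Fintype.ofFinite G
  haveI := Fintype.ofFinite L
  let πL : L →* commutator Q := (π.comp L.subtype).codRestrict _ fun x => by
    have h : (x : G) ∈ (commutator Q).comap π := hL ▸ x.2
    exact h
  let tw : (commutator Q →* ℂˣ) → Cfsg.IrrCharacter L := fun μ =>
    ⟨fun x => (μ (πL x) : ℂ) * ψ.1 x, H56.isIrrCharacter_hom_mul ψ.2 (μ.comp πL)⟩
  by_contra hcon
  push Not at hcon
  have hbad : ∀ μ, ∃ g : G, g ∉ L ∧ g ∈ H44.inertia L (tw μ).1 := by
    intro μ
    have h : ¬ H44.inertia L (tw μ).1 ≤ L := hcon (tw μ) (by simp [tw])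
    obtain ⟨g, hg, hgL⟩ := SetLike.not_le_iff_exists.1 h
    exact ⟨g, hgL, hg⟩
  choose g hgL hg using hbad
  -- the cosets of the witnesses determine the linear character
  have hinj : Function.Injective fun μ : commutator Q →* ℂˣ =>
      (⟨(g μ : G ⧸ L), fun h => hgL μ ((QuotientGroup.eq_one_iff _).1 h)⟩ :
        {x : G ⧸ L // x ≠ 1}) := by
    intro μ ν h
    have h' : (g μ : G ⧸ L) = g ν := congrArg Subtype.val h
    rw [QuotientGroup.eq] at h'
    have hν : g μ ∈ H44.inertia L (tw ν).1 := by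
      have h1 : (g μ)⁻¹ * g ν ∈ H44.inertia L (tw ν).1 :=
        H44.le_inertia L (H26.irr_isClassFunction _) h'
      have h2 := (H44.inertia L (tw ν).1).mul_mem (hg ν) ((H44.inertia L (tw ν).1).inv_mem h1)
      rwa [show g ν * ((g μ)⁻¹ * g ν)⁻¹ = g μ by group] at h2
    set x₀ := g μ with hx₀
    have hx : x₀ ∈ H44.inertia L (tw μ).1 := hg μ
    set ρ : commutator Q →* ℂˣ := μ * ν⁻¹ with hρ
    let cj : L →* L :=
      { toFun := fun x => ⟨x₀ * x * x₀⁻¹, (inferInstance : L.Normal).conj_mem x x.2 x₀⟩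
        map_one' := Subtype.ext (by simp)
        map_mul' := fun x y => Subtype.ext (by simp [mul_assoc]) }
    let τ : L →* ℂˣ := (ρ.comp (πL.comp cj)) * (ρ.comp πL)⁻¹
    have hτ : ∀ x, (τ x : ℂ) * ψ.1 x = ψ.1 x := by
      intro x
      have e1 : (μ (πL (cj x)) : ℂ) * ψ.1 (cj x) = (μ (πL x) : ℂ) * ψ.1 x := congrFun hx x
      have e2 : (ν (πL (cj x)) : ℂ) * ψ.1 (cj x) = (ν (πL x) : ℂ) * ψ.1 x := congrFun hν x
      by_cases h0 : ψ.1 x = 0
      · rw [h0, mul_zero]
      have hy : ψ.1 (cj x) ≠ 0 := fun h1 => by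
        rw [h1, mul_zero] at e1
        exact mul_ne_zero (Units.ne_zero _) h0 e1.symm
      have e3 : (μ (πL (cj x)) : ℂ) * ν (πL x) = ν (πL (cj x)) * μ (πL x) :=
        mul_right_cancel₀ hy
          (by linear_combination (ν (πL x) : ℂ) * e1 - (μ (πL x) : ℂ) * e2)
      have : τ x = 1 := by
        simp only [τ, hρ, MonoidHom.mul_apply, MonoidHom.inv_apply, MonoidHom.comp_apply]
        rw [mul_inv_eq_one, ← div_eq_mul_inv, ← div_eq_mul_inv, div_eq_div_iff_mul_eq_mul]
        exact Units.ext (by rw [Units.val_mul, Units.val_mul]; linear_combination e3)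
      rw [this, Units.val_one, one_mul]
    have hτ1 : τ = 1 := by
      refine H45.linear_eq_one_of_mul_eq (π.ker.subgroupOf L) ψ hψ τ (fun k hk => ?_) hτ
      have h1 : πL k = 1 := Subtype.ext (MonoidHom.mem_ker.1 (Subgroup.mem_subgroupOf.1 hk))
      have h2 : πL (cj k) = 1 := by
        refine Subtype.ext ?_
        show π (x₀ * (k : G) * x₀⁻¹) = 1
        rw [map_mul, map_mul, MonoidHom.mem_ker.1 (Subgroup.mem_subgroupOf.1 hk), mul_one,
          map_inv, mul_inv_cancel]
      simp [τ, h1, h2]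
    have hgx : π x₀ ∉ commutator Q := fun h => hgL μ (by rw [hL]; exact h)
    have hρ1 : ρ = 1 := by
      refine MonoidHom.ext fun b => ?_
      obtain ⟨a, ha, hab'⟩ := hsurj _ hgx b b.2
      obtain ⟨y, hy⟩ := hπ a
      have hyL : y ∈ L := by rw [hL, Subgroup.mem_comap, hy]; exact ha
      have h1 := DFunLike.congr_fun hτ1 ⟨y, hyL⟩
      simp only [τ, MonoidHom.mul_apply, MonoidHom.inv_apply, MonoidHom.comp_apply,
        MonoidHom.one_apply, ← map_inv, ← map_mul] at h1
      rw [MonoidHom.one_apply, ← h1]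
      congr 1
      refine Subtype.ext ?_
      show (b : Q) = π (x₀ * y * x₀⁻¹ * y⁻¹)
      rw [map_mul, map_mul, map_mul, map_inv, map_inv, hy, ← hab', commutatorElement_def]
    refine MonoidHom.ext fun b => ?_
    have := DFunLike.congr_fun hρ1 b
    rwa [hρ, MonoidHom.mul_apply, MonoidHom.inv_apply, MonoidHom.one_apply, mul_inv_eq_one] at this
  have hcard := Nat.card_le_card_of_injective _ hinj
  have hN : Nat.card (commutator Q →* ℂˣ) = Nat.card (commutator Q) := by
    letI : CommGroup (commutator Q) := { (inferInstance : Group (commutator Q)) with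
      mul_comm := fun x y => Subtype.ext (hab x x.2 y y.2) }
    exact CommGroup.card_monoidHom_of_hasEnoughRootsOfUnity (commutator Q) ℂ
  have hlt : Nat.card {x : G ⧸ L // x ≠ 1} < (commutator Q).index := by
    have hidx : L.index = (commutator Q).index := by
      rw [hL, Subgroup.index_comap_of_surjective _ hπ]
    rw [← hidx, Subgroup.index_eq_card]
    exact Finite.card_subtype_lt (x := (1 : G ⧸ L)) (by simp)
  omega

/-- Case B with `G' ≠ G''`. -/
theorem case_coprime {m n : ℕ} (hcop : m.Coprime n) (hm1 : 1 < m) (hn1 : 1 < n)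
    (hcd : ∀ χ : Cfsg.IrrCharacter G,
      Cfsg.charDegree χ.1 = 1 ∨ Cfsg.charDegree χ.1 = m ∨ Cfsg.charDegree χ.1 = n)
    (hm : ∃ χ : Cfsg.IrrCharacter G, Cfsg.charDegree χ.1 = m)
    (hn : ∃ χ : Cfsg.IrrCharacter G, Cfsg.charDegree χ.1 = n)
    (hne : derivedSeries G 2 ≠ derivedSeries G 1) : derivedSeries G 3 = ⊥ := by
  classical
  haveI := Fintype.ofFinite G
  have h21 : derivedSeries G 2 ≤ derivedSeries G 1 := derivedSeries_antitone (G := G) (by omega)
  obtain ⟨K, ⟨hKn, hK2, hK1⟩, hKmax⟩ := Set.Finite.exists_maximalFor id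
    {X : Subgroup G | X.Normal ∧ derivedSeries G 2 ≤ X ∧ ¬ derivedSeries G 1 ≤ X} (Set.toFinite _)
    ⟨derivedSeries G 2, inferInstance, le_rfl, fun h => hne (le_antisymm h21 h)⟩
  haveI := hKn
  haveI := Fintype.ofFinite K
  haveI := Fintype.ofFinite (G ⧸ K)
  set π := QuotientGroup.mk' K with hπ
  have hsur : Function.Surjective π := QuotientGroup.mk'_surjective K
  have hker : π.ker = K := QuotientGroup.ker_mk' K
  have hmap : (commutator G).map π = commutator (G ⧸ K) := by
    rw [commutator, Subgroup.map_commutator, Subgroup.map_top_of_surjective π hsur]; rfl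
  have hQab : ∀ a ∈ commutator (G ⧸ K), ∀ b ∈ commutator (G ⧸ K), a * b = b * a := by
    rw [← hmap]
    rintro _ ⟨a, ha, rfl⟩ _ ⟨b, hb, rfl⟩
    rw [← commutatorElement_eq_one_iff_mul_comm, ← map_commutatorElement, hπ,
      QuotientGroup.mk'_apply, QuotientGroup.eq_one_iff]
    refine hK2 ?_
    rw [derivedSeries_succ, derivedSeries_one]
    exact Subgroup.commutator_mem_commutator ha hb
  have hQne : commutator (G ⧸ K) ≠ ⊥ := by
    rw [← hmap, Ne, Subgroup.map_eq_bot_iff, hker]
    rw [derivedSeries_one] at hK1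
    exact hK1
  have hjn : ∀ X : Subgroup (G ⧸ K), X.Normal → X ≠ ⊥ → commutator (G ⧸ K) ≤ X := by
    intro X hX hXb
    rw [← hmap, Subgroup.map_le_iff_le_comap]
    by_contra hcon
    refine hXb ?_
    have hle : K ≤ X.comap π := by
      intro k hk
      rw [Subgroup.mem_comap, hπ, QuotientGroup.mk'_apply, (QuotientGroup.eq_one_iff k).2 hk]
      exact X.one_mem
    have hin : X.comap π ≤ K := hKmax ⟨hX.comap π, hK2.trans hle, by rwa [derivedSeries_one]⟩ hle
    rw [eq_bot_iff]
    intro x hx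
    obtain ⟨y, rfl⟩ := hsur x
    exact Subgroup.mem_bot.2 ((QuotientGroup.eq_one_iff y).2 (hin hx))
  obtain ⟨q, hq, hNq, hcase⟩ := just_nonabelian hQne hQab hjn
  rcases hcase with hQp | ⟨hsurj, hqi, hle, hNtop⟩
  · -- a `q`-group quotient is impossible
    exfalso
    obtain ⟨η, hη⟩ : ∃ η : Cfsg.IrrCharacter (G ⧸ K), Cfsg.charDegree η.1 ≠ 1 := by
      by_contra hcon
      push Not at hcon
      refine hQne ?_
      rw [eq_bot_iff, commutator, Subgroup.commutator_le]
      intro a _ b _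
      exact Subgroup.mem_bot.2 (commutatorElement_eq_one_iff_mul_comm.2
        (H26.comm_iff_forall_irr_one.2 (fun θ => by
          rw [H43.irr_charDegree_spec, hcon θ, Nat.cast_one]) a b))
    haveI := Fact.mk hq
    obtain ⟨k, hk⟩ := IsPGroup.iff_card.1 hQp
    obtain ⟨i, -, hi⟩ := (Nat.dvd_prime_pow hq).1 (hk ▸ H43.irr_charDegree_dvd η)
    have hi0 : i ≠ 0 := fun h0 => hη (by rw [hi, h0, pow_zero])
    have he := hcd (Deg.infl K η)
    rw [Deg.charDegree_infl] at he
    obtain ⟨χ, hχd, hχe, hd1⟩ : ∃ χ : Cfsg.IrrCharacter G,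
        (Cfsg.charDegree χ.1).Coprime (Cfsg.charDegree η.1) ∧
        (∀ r, r = 1 ∨ r = m ∨ r = n → Cfsg.charDegree χ.1 * Cfsg.charDegree η.1 ≠ r) ∧
        1 < Cfsg.charDegree χ.1 := by
      obtain ⟨χm, hχm⟩ := hm
      obtain ⟨χn, hχn⟩ := hn
      rcases he.resolve_left hη with h | h
      · refine ⟨χn, by rw [hχn, h]; exact hcop.symm, ?_, by omega⟩
        rw [hχn, h]
        rintro r (rfl | rfl | rfl) h2
        · have := (mul_eq_one.1 h2).1; omega
        · exact absurd ((Nat.mul_eq_right (by omega)).1 h2) (by omega)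
        · exact absurd ((Nat.mul_eq_left (by omega)).1 h2) (by omega)
      · refine ⟨χm, by rw [hχm, h]; exact hcop, ?_, by omega⟩
        rw [hχm, h]
        rintro r (rfl | rfl | rfl) h2
        · have := (mul_eq_one.1 h2).1; omega
        · exact absurd ((Nat.mul_eq_left (by omega)).1 h2) (by omega)
        · exact absurd ((Nat.mul_eq_right (by omega)).1 h2) (by omega)
    obtain ⟨θ, hθ⟩ := H43.exists_restrMult_ne_zero K χ
    have hin : Cfsg.classInner (fun x : K => χ.1 x) θ.1 ≠ 0 := by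
      rw [H43.classInner_eq_mult (H43.isCharacter_restr K χ)]
      exact Nat.cast_ne_zero.2 hθ
    obtain ⟨hs1, hs2⟩ := Deg.constituent_dvd K χ θ hin
    have hratio : Cfsg.charDegree χ.1 / Cfsg.charDegree θ.1 = 1 := by
      refine Nat.eq_one_of_dvd_coprimes (k := Cfsg.charDegree χ.1 / Cfsg.charDegree θ.1)
        (a := Cfsg.charDegree χ.1) (b := q ^ k) ?_ (Nat.div_dvd_of_dvd hs1) ?_
      · refine Nat.Coprime.pow_right k ?_
        rw [hi, Nat.coprime_pow_right_iff (Nat.pos_of_ne_zero hi0)] at hχd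
        exact hχd
      · rw [← hk, ← Subgroup.index_eq_card]; exact hs2
    have hres := Deg.restrict_eq_of_degree_eq K χ θ hin (Nat.eq_of_dvd_of_div_eq_one hs1 hratio).symm
    have hirr : Cfsg.IsIrrCharacter K fun x : K => χ.1 x := hres ▸ θ.2
    have hprod := hcd ⟨_, H45.isIrrCharacter_extMul K χ hirr η⟩
    refine hχe _ hprod ?_
    rw [← Nat.cast_inj (R := ℂ), Nat.cast_mul, ← H43.irr_charDegree_spec, ← H43.irr_charDegree_spec,
      ← H43.irr_charDegree_spec]
    rfl
  -- the Frobenius quotient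
  set L : Subgroup G := (commutator (G ⧸ K)).comap π with hL
  haveI := Fintype.ofFinite L
  set f := (commutator (G ⧸ K)).index with hf
  have hLi : L.index = f := by rw [hL, Subgroup.index_comap_of_surjective _ hsur]
  have hf1 : f ≠ 1 := fun h => hNtop (Subgroup.index_eq_one.1 h)
  have hf0 : f ≠ 0 := Subgroup.index_ne_zero_of_finite
  have hind : ∀ ψ : Cfsg.IrrCharacter L,
      Cfsg.IsIrrCharacter (π.ker.subgroupOf L) (fun k : π.ker.subgroupOf L => ψ.1 k) →
      f * Cfsg.charDegree ψ.1 = m ∨ f * Cfsg.charDegree ψ.1 = n := by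
    intro ψ hψ
    obtain ⟨φ, hφ1, hφI⟩ := exists_twist_inertia π hsur L rfl hQab hsurj hle ψ hψ
    obtain ⟨χ, hχ⟩ := Deg.exists_degree_of_inertia_eq L φ hφI
    rw [hLi, show Cfsg.charDegree φ.1 = Cfsg.charDegree ψ.1 by simp [Cfsg.charDegree, hφ1]] at hχ
    rcases hcd χ with h | h | h <;> rw [h] at hχ
    · exact absurd (Nat.eq_one_of_mul_eq_one_right hχ.symm) hf1
    · exact Or.inl hχ.symm
    · exact Or.inr hχ.symm
  haveI := Fintype.ofFinite (π.ker.subgroupOf L)
  have hfmem : f = m ∨ f = n := by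
    have h1 := hind (H26.oneIrr L) (by
      rw [show (fun k : π.ker.subgroupOf L => (H26.oneIrr L).1 k) =
        (H26.oneIrr (π.ker.subgroupOf L)).1 from funext fun k => by simp [H26.oneIrr_val]]
      exact (H26.oneIrr _).2)
    rwa [Deg.charDegree_oneIrr, mul_one] at h1
  -- `d` is the degree different from `f`
  obtain ⟨d, hfd, hd⟩ : ∃ d, f.Coprime d ∧
      (∀ χ : Cfsg.IrrCharacter G, Cfsg.charDegree χ.1 = 1 ∨ Cfsg.charDegree χ.1 = f ∨
        Cfsg.charDegree χ.1 = d) := by
    rcases hfmem with h | h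
    · exact ⟨n, h ▸ hcop, fun χ => h ▸ hcd χ⟩
    · exact ⟨m, h ▸ hcop.symm, fun χ => h ▸ (by have := hcd χ; tauto)⟩
  have hmn' : ∀ x, x = m ∨ x = n → x = f ∨ x = d := by
    obtain ⟨χm, hχm⟩ := hm
    obtain ⟨χn, hχn⟩ := hn
    rintro x (rfl | rfl)
    · have := hd χm; omega
    · have := hd χn; omega
  -- all non-linear degrees of `L` are divisible by `q`
  have hq_dvd : ∀ ψ : Cfsg.IrrCharacter L, Cfsg.charDegree ψ.1 ≠ 1 → q ∣ Cfsg.charDegree ψ.1 := by
    intro ψ hψ
    obtain ⟨θ, hθ⟩ := H43.exists_restrMult_ne_zero (π.ker.subgroupOf L) ψ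
    have hin : Cfsg.classInner (fun x : π.ker.subgroupOf L => ψ.1 x) θ.1 ≠ 0 := by
      rw [H43.classInner_eq_mult (H43.isCharacter_restr _ ψ)]
      exact Nat.cast_ne_zero.2 hθ
    obtain ⟨hs1, hs2⟩ := Deg.constituent_dvd (π.ker.subgroupOf L) ψ θ hin
    by_cases heq : Cfsg.charDegree ψ.1 / Cfsg.charDegree θ.1 = 1
    · exfalso
      have hres := Deg.restrict_eq_of_degree_eq _ ψ θ hin
        (Nat.eq_of_dvd_of_div_eq_one hs1 heq).symm
      rcases hmn' _ (hind ψ (hres ▸ θ.2)) with h | h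
      · exact hψ ((Nat.mul_eq_left hf0).1 h)
      · exact hf1 (Nat.dvd_one.1 (hfd ▸ Nat.dvd_gcd dvd_rfl ⟨_, h.symm⟩))
    · have hidx : (π.ker.subgroupOf L).index = Nat.card (commutator (G ⧸ K)) := by
        let πL : L →* commutator (G ⧸ K) := (π.comp L.subtype).codRestrict _ fun x => x.2
        have hk : π.ker.subgroupOf L = πL.ker := by
          ext x
          rw [Subgroup.mem_subgroupOf, MonoidHom.mem_ker, MonoidHom.mem_ker, ← Subtype.coe_inj]
          rfl
        have hs : Function.Surjective πL := by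
          rintro ⟨y, hy⟩
          obtain ⟨x, rfl⟩ := hsur y
          exact ⟨⟨x, hy⟩, rfl⟩
        rw [hk, Subgroup.index_ker, MonoidHom.range_eq_top.2 hs, Subgroup.card_top]
      haveI := Fact.mk hq
      obtain ⟨r, hr⟩ := IsPGroup.iff_card.1 hNq
      rw [hidx, hr, Nat.dvd_prime_pow hq] at hs2
      obtain ⟨j, -, hj⟩ := hs2
      have hj0 : j ≠ 0 := fun h0 => heq (by rw [hj, h0, pow_zero])
      exact ((dvd_pow_self q hj0).trans (hj ▸ Nat.div_dvd_of_dvd hs1))
  have hL2 : derivedSeries L 2 = ⊥ := by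
    refine two_degrees d fun ψ => or_iff_not_imp_left.2 fun hψ => ?_
    obtain ⟨χ, hχ⟩ := H44.exists_irr_over L ψ
    obtain ⟨hs1, hs2⟩ := Deg.constituent_dvd L χ ψ hχ
    rw [hLi] at hs2
    have hqs := hq_dvd ψ hψ
    rcases hd χ with h | h | h <;> rw [h] at hs1 hs2
    · exact absurd (Nat.dvd_one.1 hs1) hψ
    · exact absurd (hqs.trans hs1) hqi
    · exact (Nat.eq_of_dvd_of_div_eq_one hs1
        (Nat.eq_one_of_dvd_coprimes hfd hs2 (Nat.div_dvd_of_dvd hs1)))
  have h1L : derivedSeries G 1 ≤ L := by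
    rw [derivedSeries_one, hL, ← Subgroup.map_le_iff_le_comap, hmap]
  have h3 := H33.derivedSeries_add_le h1L 2
  rw [hL2, Subgroup.map_bot] at h3
  exact le_bot_iff.1 h3

/-- Isaacs 12.15: at most three character degrees give derived length at most three. -/
theorem dl3 : ∀ (c : ℕ) (G : Type u) [Group G] [Finite G], Nat.card G ≤ c → DL3 G := by
  intro c
  induction c using Nat.strong_induction_on with
  | _ c ih =>
  intro G _ _ hc
  suffices h : ∀ m n : ℕ, m < n → (∀ χ : Cfsg.IrrCharacter G,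
      Cfsg.charDegree χ.1 = 1 ∨ Cfsg.charDegree χ.1 = m ∨ Cfsg.charDegree χ.1 = n) →
      derivedSeries G 3 = ⊥ by
    intro m n hcd
    rcases lt_trichotomy m n with hlt | rfl | hlt
    · exact h m n hlt hcd
    · exact le_bot_iff.1 ((derivedSeries_antitone (G := G) (by omega : 2 ≤ 3)).trans
        (two_degrees m fun χ => by have := hcd χ; tauto).le)
    · exact h n m hlt fun χ => by have := hcd χ; tauto
  intro m n hmn hcd
  have htwo : ∀ a, (∀ χ : Cfsg.IrrCharacter G, Cfsg.charDegree χ.1 = 1 ∨ Cfsg.charDegree χ.1 = a) →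
      derivedSeries G 3 = ⊥ := fun a ha =>
    le_bot_iff.1 ((derivedSeries_antitone (G := G) (by omega : 2 ≤ 3)).trans (two_degrees a ha).le)
  by_cases hm : ∃ χ : Cfsg.IrrCharacter G, Cfsg.charDegree χ.1 = m ∧ 1 < m
  swap
  · refine htwo n fun χ => ?_
    push Not at hm
    rcases hcd χ with h | h | h
    · exact Or.inl h
    · have := hm χ h
      have := H43.irr_charDegree_pos χ
      left; omega
    · exact Or.inr h
  obtain ⟨χm, hχm, hm1⟩ := hm
  by_cases hn : ∃ χ : Cfsg.IrrCharacter G, Cfsg.charDegree χ.1 = n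
  swap
  · refine htwo m fun χ => ?_
    push Not at hn
    rcases hcd χ with h | h | h
    · exact Or.inl h
    · exact Or.inr h
    · exact absurd h (hn χ)
  by_cases hg : m.Coprime n
  · by_cases hperf : derivedSeries G 2 = derivedSeries G 1
    · refine case_perfect_derived hmn hg hm1 hcd ⟨χm, hχm⟩ hn hperf fun X _ hX => ?_
      exact ih (Nat.card (G ⧸ X)) (lt_of_lt_of_le (by
        rw [X.card_eq_card_quotient_mul_card_subgroup]
        exact lt_mul_of_one_lt_right Nat.card_pos ((Subgroup.one_lt_card_iff_ne_bot X).2 hX)) hc)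
        _ le_rfl
    · exact case_coprime hg hm1 (by omega) hcd ⟨χm, hχm⟩ hn hperf
  · obtain ⟨p, hp, hpm, hpn⟩ := Nat.Prime.not_coprime_iff_dvd.1 hg
    refine case_common_prime hp hpm hpn hcd ⟨χm, hχm⟩ (by omega) (by omega) hmn fun M hM => ?_
    refine ih (Nat.card M) (lt_of_lt_of_le ?_ hc) _ le_rfl
    exact lt_of_le_of_ne (Subgroup.card_le_card_group M) fun h => hM (Subgroup.eq_top_of_card_eq M h)

/-- A group with exactly three degrees has derived length at most three. -/
theorem derivedSeries_three_of_card_degrees {G : Type u} [Group G] [Finite G]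
    (hcd : Nat.card {n : ℕ // ∃ χ : Cfsg.IrrCharacter G, Cfsg.charDegree χ.1 = n} = 3) :
    derivedSeries G 3 = ⊥ := by
  haveI := Fintype.ofFinite G
  let S : Set ℕ := {n | ∃ χ : Cfsg.IrrCharacter G, Cfsg.charDegree χ.1 = n}
  have hS : S.ncard = 3 := hcd
  obtain ⟨x, y, z, -, -, -, hxyz⟩ := Set.ncard_eq_three.1 hS
  have h1 : (1 : ℕ) ∈ S := ⟨H26.oneIrr G, Deg.charDegree_oneIrr⟩
  have hall : ∀ χ : Cfsg.IrrCharacter G, Cfsg.charDegree χ.1 ∈ ({x, y, z} : Set ℕ) := fun χ =>
    hxyz ▸ (⟨χ, rfl⟩ : Cfsg.charDegree χ.1 ∈ S)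
  rw [hxyz] at h1
  simp only [Set.mem_insert_iff, Set.mem_singleton_iff] at h1 hall
  rcases h1 with h | h | h
  · exact dl3 _ G le_rfl y z fun χ => by have := hall χ; omega
  · exact dl3 _ G le_rfl x z fun χ => by have := hall χ; omega
  · exact dl3 _ G le_rfl x y fun χ => by have := hall χ; omega

end Cfsg.Agent.H27.ThreeDeg
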